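import Mathlib
import Cfsg.Agent.Lib.Element

/-!
Counting lemmas for an involutory automorphism: fixed points, odd inverted elements, quotients.
-/

set_option autoImplicit false
set_option linter.style.haveILetI false

open Subgroup

namespace Cfsg.Agent.InvBound

variable {G : Type*} [Group G]

/-- The fixed-point subgroup. -/
def fix (α : MulAut G) : Subgroup G := α.toMonoidHom.eqLocus (MonoidHom.id G)

theorem mem_fix {α : MulAut G} {x : G} : x ∈ fix α ↔ α x = x := Iff.rfl

/-- The elements of odd order inverted by `α`. -/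
abbrev OddInv (α : MulAut G) : Type _ := {g : G // Odd (orderOf g) ∧ α g = g⁻¹}

/-- `H` is invariant under `α`. -/
def Stable (α : MulAut G) (H : Subgroup G) : Prop := ∀ x ∈ H, α x ∈ H

/-- The restriction of an involutory automorphism. -/
def restr (α : MulAut G) (hα : ∀ g, α (α g) = g) (H : Subgroup G) (hH : Stable α H) :
    MulAut H where
  toFun x := ⟨α x, hH x x.2⟩
  invFun x := ⟨α x, hH x x.2⟩
  left_inv x := Subtype.ext (hα _)
  right_inv x := Subtype.ext (hα _)
  map_mul' x y := Subtype.ext (map_mul α (x : G) y)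

@[simp] theorem restr_coe (α : MulAut G) (hα : ∀ g, α (α g) = g) (H : Subgroup G)
    (hH : Stable α H) (x : H) : ((restr α hα H hH x : H) : G) = α x := rfl

theorem Stable.map_eq {α : MulAut G} (hα : ∀ g, α (α g) = g) {H : Subgroup G} (hH : Stable α H) :
    H.map α.toMonoidHom = H :=
  le_antisymm (Subgroup.map_le_iff_le_comap.2 hH) fun x hx => ⟨α x, hH x hx, hα x⟩

/-- The automorphism induced on a quotient. -/
noncomputable def quotAut (α : MulAut G) (hα : ∀ g, α (α g) = g) (N : Subgroup G) [N.Normal]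
    (hN : Stable α N) : MulAut (G ⧸ N) :=
  QuotientGroup.congr N N α (hN.map_eq hα)

theorem quotAut_mk (α : MulAut G) (hα : ∀ g, α (α g) = g) (N : Subgroup G) [N.Normal]
    (hN : Stable α N) (g : G) :
    quotAut α hα N hN (QuotientGroup.mk' N g) = QuotientGroup.mk' N (α g) := rfl

theorem quotAut_invol (α : MulAut G) (hα : ∀ g, α (α g) = g) (N : Subgroup G) [N.Normal]
    (hN : Stable α N) : ∀ q, quotAut α hα N hN (quotAut α hα N hN q) = q := by
  intro q
  obtain ⟨g, rfl⟩ := QuotientGroup.mk'_surjective N q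
  rw [quotAut_mk, quotAut_mk, hα]

theorem card_le_mul_of_fiber {X Y : Type*} [Finite X] [Finite Y] (f : X → Y) (c : ℕ)
    (h : ∀ y, Nat.card {x // f x = y} ≤ c) : Nat.card X ≤ Nat.card Y * c := by
  classical
  haveI := Fintype.ofFinite Y
  rw [← Nat.card_congr (Equiv.sigmaFiberEquiv f), Nat.card_sigma, Nat.card_eq_fintype_card]
  refine (Finset.sum_le_card_nsmul _ _ c fun y _ => h y).trans ?_
  simp

/-- Two elements with the same `g⁻¹ α(g)` differ by a fixed point. -/
theorem fiber_le [Finite G] (α : MulAut G) (H : Subgroup G) (v : G) :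
    Nat.card {x : H // (x : G)⁻¹ * α x = v} ≤ Nat.card (fix α) := by
  rcases isEmpty_or_nonempty {x : H // (x : G)⁻¹ * α x = v} with he | ⟨⟨x₀, hx₀⟩⟩
  · rw [Nat.card_of_isEmpty]; exact Nat.zero_le _
  refine Nat.card_le_card_of_injective
    (fun x => (⟨((x.1 : H) : G) * (x₀ : G)⁻¹, ?_⟩ : fix α)) ?_
  · rw [mem_fix, map_mul, map_inv]
    have hx := x.2
    have e1 : α (x.1 : G) = (x.1 : G) * v := inv_mul_eq_iff_eq_mul.1 hx
    have e2 : α (x₀ : G) = (x₀ : G) * v := inv_mul_eq_iff_eq_mul.1 hx₀
    rw [e1, e2]; group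
  · intro a b hab
    have := congrArg Subtype.val hab
    exact Subtype.ext (Subtype.ext (mul_right_cancel this))

section Hom

variable {Q : Type*} [Group Q] (φ : G →* Q) (hφ : Function.Surjective φ) (α : MulAut G)
  (β : MulAut Q) (hc : ∀ g, φ (α g) = β (φ g))

include hφ hc

/-- Fixed points do not increase in number in quotients. -/
theorem card_fix_le [Finite G] : Nat.card (fix β) ≤ Nat.card (fix α) := by
  set S := (fix β).comap φ with hS
  let ψ : S →* fix β := (φ.comp S.subtype).codRestrict (fix β) fun x => x.2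
  have hψ : Function.Surjective ψ := by
    rintro ⟨q, hq⟩
    obtain ⟨g, rfl⟩ := hφ q
    exact ⟨⟨g, hq⟩, rfl⟩
  have hker : Nat.card ψ.ker = Nat.card φ.ker := by
    refine Nat.card_congr
      { toFun := fun x => ⟨((x : S) : G), ?_⟩
        invFun := fun x => ⟨⟨(x : G), ?_⟩, ?_⟩
        left_inv := fun x => rfl
        right_inv := fun x => rfl }
    · exact congrArg Subtype.val (MonoidHom.mem_ker.1 x.2)
    · show φ (x : G) ∈ fix β
      rw [MonoidHom.mem_ker.1 x.2]
      exact one_mem _
    · exact Subtype.ext (MonoidHom.mem_ker.1 x.2)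
  have h1 : Nat.card (fix β) * Nat.card φ.ker = Nat.card S := by
    rw [← Subgroup.card_mul_index ψ.ker, Subgroup.index_ker, MonoidHom.range_eq_top.2 hψ,
      Subgroup.card_top, hker, mul_comm]
  have h2 : Nat.card S ≤ Nat.card φ.ker * Nat.card (fix α) := by
    refine card_le_mul_of_fiber (fun x : S => (⟨(x : G)⁻¹ * α x, ?_⟩ : φ.ker)) _ fun y => ?_
    · rw [MonoidHom.mem_ker, map_mul, map_inv, hc, mem_fix.1 x.2, inv_mul_cancel]
    · refine le_of_eq_of_le (Nat.card_congr (Equiv.subtypeEquivRight fun x => ?_))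
        (fiber_le α S (y : G))
      exact ⟨fun h => congrArg Subtype.val h, fun h => Subtype.ext h⟩
  rw [← h1, mul_comm] at h2
  exact Nat.le_of_mul_le_mul_left h2 Nat.card_pos

/-- Odd inverted elements of a quotient lift. -/
theorem exists_oddInv_lift [Finite G] (hα : ∀ g, α (α g) = g) (q : OddInv β) :
    ∃ x : OddInv α, φ (x : G) = (q : Q) := by
  obtain ⟨⟨k, hk⟩, hinv⟩ := q.2
  obtain ⟨g, hg⟩ := hφ ((q : Q) ^ (k + 1))
  set x := g * (α g)⁻¹ with hx
  have hxinv : α x = x⁻¹ := by
    rw [hx, map_mul, map_inv, hα, mul_inv_rev, inv_inv]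
  have hφx : φ x = q := by
    rw [hx, map_mul, map_inv, hc, hg, map_pow, hinv, inv_pow, inv_inv, ← pow_add]
    have : k + 1 + (k + 1) = (2 * k + 1) + 1 := by omega
    rw [this, pow_succ, ← hk, pow_orderOf_eq_one, one_mul]
  set y := Element.pComplPart 2 x with hy
  obtain ⟨i, hi⟩ := Element.pComplPart_mem_zpowers 2 x
  have hyinv : α y = y⁻¹ := by
    rw [hy, ← hi, map_zpow, hxinv, inv_zpow]
  have hyodd : Odd (orderOf y) := by
    rw [← Nat.coprime_two_right]
    exact Element.coprime_orderOf_pComplPart Nat.prime_two x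
  refine ⟨⟨y, hyodd, hyinv⟩, ?_⟩
  have h2 : φ (Element.pPart 2 x) = 1 := by
    rw [← orderOf_eq_one_iff]
    refine Nat.eq_one_of_dvd_coprimes
      (a := orderOf (Element.pPart 2 x)) (b := orderOf (q : Q)) ?_ (orderOf_map_dvd φ _) ?_
    · rw [Element.orderOf_pPart_eq_pow Nat.prime_two]
      exact Nat.Coprime.pow_left _ (Nat.coprime_two_left.2 q.2.1)
    · obtain ⟨j, hj⟩ := Element.pPart_mem_zpowers 2 x
      rw [← hj, map_zpow, hφx]
      exact orderOf_dvd_of_mem_zpowers ⟨j, rfl⟩
  show φ y = q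
  conv_rhs => rw [← hφx, ← Element.pPart_mul_pComplPart 2 x, map_mul, h2, one_mul]

theorem card_oddInv_le [Finite G] (hα : ∀ g, α (α g) = g) :
    Nat.card (OddInv β) ≤ Nat.card (OddInv α) := by
  choose f hf using exists_oddInv_lift φ hφ α β hc hα
  refine Nat.card_le_card_of_injective f fun a b hab => Subtype.ext ?_
  rw [← hf a, ← hf b, hab]

theorem commutator_generate (hα : Subgroup.closure (Set.range fun g : G => g * (α g)⁻¹) = ⊤) :
    Subgroup.closure (Set.range fun q : Q => q * (β q)⁻¹) = ⊤ := by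
  rw [eq_top_iff, ← Subgroup.map_top_of_surjective φ hφ, ← hα, MonoidHom.map_closure]
  refine Subgroup.closure_mono ?_
  rintro _ ⟨_, ⟨g, rfl⟩, rfl⟩
  exact ⟨φ g, by simp [hc]⟩

end Hom

theorem card_oddInv_restr_le [Finite G] (α : MulAut G) (hα : ∀ g, α (α g) = g) (H : Subgroup G)
    (hH : Stable α H) : Nat.card (OddInv (restr α hα H hH)) ≤ Nat.card (OddInv α) := by
  refine Nat.card_le_card_of_injective
    (fun x => ⟨((x : H) : G), ?_, ?_⟩) fun a b hab =>
      Subtype.ext (Subtype.ext (congrArg (fun x : OddInv α => (x : G)) hab))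
  · rw [Subgroup.orderOf_coe]; exact x.2.1
  · have := congrArg (Subtype.val (p := (· ∈ H))) x.2.2
    simpa using this

theorem card_fix_restr_le [Finite G] (α : MulAut G) (hα : ∀ g, α (α g) = g) (H : Subgroup G)
    (hH : Stable α H) : Nat.card (fix (restr α hα H hH)) ≤ Nat.card (fix α) :=
  Nat.card_le_card_of_injective
    (fun x => (⟨((x : H) : G), congrArg (Subtype.val (p := (· ∈ H))) x.2⟩ : fix α))
    fun a b hab => Subtype.ext (Subtype.ext (congrArg (fun x : fix α => (x : G)) hab))

/-- An abelian subgroup inverted by `α`, of exponent dividing `2^k·o` with `o` odd. -/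
theorem card_inverted_le [Finite G] (α : MulAut G) {o : ℕ} (ho : Odd o) :
    ∀ (k : ℕ) (J : Subgroup G), IsMulCommutative J → (∀ x ∈ J, α x = x⁻¹) →
      (∀ x ∈ J, x ^ (2 ^ k * o) = 1) →
      Nat.card J ≤ Nat.card (fix α) ^ k * Nat.card (OddInv α) := by
  intro k
  induction k with
  | zero =>
    intro J _ hinv hexp
    rw [pow_zero, one_mul]
    refine Nat.card_le_card_of_injective (fun x : J => (⟨(x : G), ?_, hinv x x.2⟩ : OddInv α))
      fun a b hab => Subtype.ext (congrArg (fun x : OddInv α => (x : G)) hab)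
    have := hexp x x.2
    rw [pow_zero, one_mul] at this
    exact ho.of_dvd_nat (orderOf_dvd_of_pow_eq_one this)
  | succ k ih =>
    intro J hJ hinv hexp
    let sq : J →* G :=
      { toFun := fun x => (x : G) ^ 2
        map_one' := by simp
        map_mul' := fun x y => by
          rw [Subgroup.coe_mul]
          exact Commute.mul_pow (congrArg Subtype.val (hJ.is_comm.comm x y)) 2 }
    have hker : Nat.card sq.ker ≤ Nat.card (fix α) := by
      refine Nat.card_le_card_of_injective (fun x => (⟨((x : J) : G), ?_⟩ : fix α))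
        fun a b hab => Subtype.ext (Subtype.ext (congrArg (fun x : fix α => (x : G)) hab))
      rw [mem_fix, hinv _ (x : J).2, inv_eq_iff_mul_eq_one, ← _root_.sq]
      exact MonoidHom.mem_ker.1 x.2
    have hr := ih sq.range ?_ ?_ ?_
    · have h1 := Subgroup.card_mul_index sq.ker
      rw [Subgroup.index_ker] at h1
      rw [← h1, pow_succ']
      calc _ ≤ Nat.card (fix α) * (Nat.card (fix α) ^ k * Nat.card (OddInv α)) :=
            Nat.mul_le_mul hker hr
        _ = _ := (mul_assoc _ _ _).symm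
    · exact ⟨⟨fun a b => Subtype.ext (by
        obtain ⟨x, hx⟩ := a.2
        obtain ⟨y, hy⟩ := b.2
        rw [Subgroup.coe_mul, Subgroup.coe_mul, ← hx, ← hy]
        exact (Commute.pow_pow (congrArg Subtype.val (hJ.is_comm.comm x y)) 2 2).eq)⟩⟩
    · rintro _ ⟨x, rfl⟩
      show α ((x : G) ^ 2) = ((x : G) ^ 2)⁻¹
      rw [map_pow, hinv x x.2, inv_pow]
    · rintro _ ⟨x, rfl⟩
      show ((x : G) ^ 2) ^ (2 ^ k * o) = 1
      rw [← pow_mul, ← mul_assoc, ← pow_succ']
      exact hexp x x.2

/-- An invariant abelian subgroup of exponent dividing `e`. -/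
theorem card_abelian_le [Finite G] (α : MulAut G) (hα : ∀ g, α (α g) = g) {c m e : ℕ} (he : e ≠ 0)
    (hc : Nat.card (fix α) ≤ c) (hm : Nat.card (OddInv α) ≤ m) (A : Subgroup G)
    (hA : IsMulCommutative A) (hAs : Stable α A) (hexp : ∀ x ∈ A, x ^ e = 1) :
    Nat.card A ≤ c * (c ^ e * m) := by
  let ν : A →* G :=
    { toFun := fun x => (x : G) * α x
      map_one' := by simp
      map_mul' := fun x y => by
        rw [Subgroup.coe_mul, map_mul]
        have := congrArg Subtype.val (hA.is_comm.comm y ⟨α x, hAs x x.2⟩)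
        simp only [Subgroup.coe_mul] at this
        rw [mul_assoc, ← mul_assoc (y : G), this]
        group }
  have hrange : Nat.card ν.range ≤ c := by
    refine le_trans (Subgroup.card_le_of_le ?_) hc
    rintro _ ⟨x, rfl⟩
    show α ((x : G) * α x) = (x : G) * α x
    rw [map_mul, hα]
    exact congrArg Subtype.val (hA.is_comm.comm ⟨α x, hAs x x.2⟩ x)
  obtain ⟨k, o, ho, rfl⟩ := Nat.exists_eq_two_pow_mul_odd he
  have hker : Nat.card ν.ker ≤ c ^ (2 ^ k * o) * m := by
    rw [← Subgroup.card_map_of_injective A.subtype_injective (K := ν.ker)]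
    refine le_trans (card_inverted_le α ho k _ ?_ ?_ ?_) ?_
    · exact ⟨⟨fun a b => Subtype.ext (by
        obtain ⟨x, -, hx⟩ := a.2
        obtain ⟨y, -, hy⟩ := b.2
        rw [Subgroup.coe_mul, Subgroup.coe_mul, ← hx, ← hy]
        exact congrArg Subtype.val (hA.is_comm.comm x y))⟩⟩
    · rintro _ ⟨x, hx, rfl⟩
      exact eq_inv_of_mul_eq_one_right (MonoidHom.mem_ker.1 hx)
    · rintro _ ⟨x, -, rfl⟩
      exact hexp x x.2
    · refine Nat.mul_le_mul ((Nat.pow_le_pow_left hc k).trans (Nat.pow_le_pow_right ?_ ?_)) hm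
      · exact le_trans Nat.card_pos hc
      · exact (Nat.lt_two_pow_self).le.trans (Nat.le_mul_of_pos_right _ ho.pos)
  rw [← Subgroup.card_mul_index ν.ker, Subgroup.index_ker, mul_comm]
  exact Nat.mul_le_mul hrange hker

theorem card_mulAut_le (A : Type*) [Group A] [Finite A] :
    Nat.card (MulAut A) ≤ Nat.card A ^ Nat.card A := by
  rw [← Nat.card_fun]
  exact Nat.card_le_card_of_injective _ DFunLike.coe_injective

theorem card_le_centralizer_mul [Finite G] (H A : Subgroup G) [A.Normal] {a : ℕ}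
    (ha : Nat.card A ≤ a) :
    Nat.card H ≤ Nat.card ↥(H ⊓ Subgroup.centralizer (A : Set G)) * a ^ a := by
  set ψ : H →* MulAut A := (MulAut.conjNormal).comp H.subtype with hψ
  rw [← Subgroup.card_mul_index ψ.ker, Subgroup.index_ker]
  refine Nat.mul_le_mul ?_ ?_
  · refine Nat.card_le_card_of_injective
      (fun x => (⟨((x : H) : G), ?_⟩ : ↥(H ⊓ Subgroup.centralizer (A : Set G))))
      fun a b hab => Subtype.ext (Subtype.ext
        (congrArg (fun x : ↥(H ⊓ Subgroup.centralizer (A : Set G)) => (x : G)) hab))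
    refine ⟨(x : H).2, Subgroup.mem_centralizer_iff.2 fun z hz => ?_⟩
    have h := congrArg (fun e : MulAut A => ((e ⟨z, hz⟩ : A) : G)) (MonoidHom.mem_ker.1 x.2)
    simp only [hψ, MonoidHom.comp_apply, Subgroup.coe_subtype, MulAut.conjNormal_apply,
      MulAut.one_apply] at h
    exact (mul_inv_eq_iff_eq_mul.1 h).symm
  · refine (Subgroup.card_le_card_group _).trans ((card_mulAut_le A).trans ?_)
    exact (Nat.pow_le_pow_left ha _).trans
      (Nat.pow_le_pow_right (le_trans Nat.card_pos ha) ha)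

end Cfsg.Agent.InvBound
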