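import Cfsg.Agent.InvBound.Structure
import Cfsg.Agent.Zipper.Iterate

/-!
If `[G, α] = G` for an involutory automorphism `α`, the inverted elements of odd order generate.
-/

set_option autoImplicit false
set_option linter.style.haveILetI false

open Pointwise Subgroup
open scoped commutatorElement

namespace Cfsg.Agent.InvBound

universe u

theorem generate_aux : ∀ (n : ℕ) (Γ : Type u) [Group Γ] [Finite Γ], Nat.card Γ ≤ n →
    ∀ a : Γ, a * a = 1 → Zipper.GenG (zpowers a) →
      closure (insert a {x : Γ | Odd (orderOf x) ∧ a * x * a = x⁻¹}) = ⊤ := by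
  intro n
  induction n with
  | zero => intro Γ _ _ hn; have := Nat.card_pos (α := Γ); omega
  | succ n ih =>
    intro Γ _ _ hn a ha2 hgen
    have hai : a⁻¹ = a := inv_eq_of_mul_eq_one_right ha2
    set L := closure (insert a {x : Γ | Odd (orderOf x) ∧ a * x * a = x⁻¹}) with hL
    have haL : zpowers a ≤ L := zpowers_le.2 (subset_closure (Set.mem_insert a _))
    by_cases ha : zpowers a = ⊤
    · exact top_le_iff.1 (ha ▸ haL)
    rcases Zipper.zipper (zpowers a) hgen ha with hY | ⟨M, ⟨hM, haM⟩, huniq⟩
    · rw [eq_top_iff, ← hY]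
      refine sSup_le fun H hH => ?_
      have haH : a ∈ H := hH.1 (mem_zpowers a)
      have hz : (zpowers a).subgroupOf H = zpowers (⟨a, haH⟩ : H) := by
        apply map_injective H.subtype_injective
        rw [map_subgroupOf_eq_of_le hH.1, MonoidHom.map_zpowers]
        rfl
      have hcard : Nat.card H ≤ n := by
        have : Nat.card H < Nat.card Γ :=
          lt_of_le_of_ne (card_le_card_group H) fun e => hH.2.1 (eq_top_of_card_eq H e)
        omega
      have hgH : Zipper.GenG (zpowers (⟨a, haH⟩ : H)) := hz ▸ (Zipper.genBy_iff hH.1).1 hH.2.2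
      have h := congrArg (Subgroup.map H.subtype) (ih H hcard _ (Subtype.ext ha2) hgH)
      rw [← MonoidHom.range_eq_map, range_subtype, MonoidHom.map_closure] at h
      refine h.ge.trans (closure_mono ?_)
      rintro _ ⟨x, hx, rfl⟩
      rcases hx with rfl | ⟨ho, hx⟩
      · exact Set.mem_insert a _
      · refine Set.mem_insert_of_mem _ ⟨?_, congrArg Subtype.val hx⟩
        rwa [Subgroup.subtype_apply, Subgroup.orderOf_coe]
    · by_contra hK
      have huniq' : ∀ N : Subgroup Γ, IsCoatom N → zpowers a ≤ N → N = M := fun N hN haN =>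
        huniq N ⟨hN, haN⟩
      refine hM.1 (eq_top_iff.2 fun g _ => ?_)
      refine Zipper.mem_of_iterate_commutator_mem hgen hM haM huniq' 1 g ?_
      rw [Function.iterate_one]
      set x := ⁅g, a⁆ with hx
      have hxinv : a * x * a = x⁻¹ := by
        rw [hx, commutatorElement_def, hai, mul_inv_rev, mul_inv_rev, mul_inv_rev, inv_inv, hai]
        calc a * (g * a * g⁻¹ * a) * a = a * g * a * g⁻¹ * (a * a) := by group
          _ = a * (g * (a * g⁻¹)) := by rw [ha2]; group
      by_contra hxM
      have hD : zpowers a ⊔ zpowers x = ⊤ := by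
        by_contra hne
        obtain ⟨X, hX, hDX⟩ := Zipper.exists_coatom_ge hne
        exact hxM (huniq' X hX (le_sup_left.trans hDX) ▸ hDX (mem_sup_right (mem_zpowers x)))
      have hconj : MulAut.conj x • zpowers a ≤ zpowers a ⊔ zpowers (x ^ 2) := by
        intro y hy
        rw [Coprime.mem_conj_smul] at hy
        obtain ⟨i, hi⟩ := hy
        have : y = (x * a * x⁻¹) ^ i := by
          rw [conj_zpow, show a ^ i = x⁻¹ * y * x from hi]; group
        rw [this]
        refine zpow_mem ?_ i
        have e : x * a * x⁻¹ = a * (x ^ 2)⁻¹ := by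
          calc x * a * x⁻¹ = (a * a) * x * a * x⁻¹ := by rw [ha2, one_mul]
            _ = a * (a * x * a) * x⁻¹ := by group
            _ = a * (x ^ 2)⁻¹ := by rw [hxinv]; group
        rw [e]
        exact mul_mem (mem_sup_left (mem_zpowers a)) (mem_sup_right (inv_mem (mem_zpowers _)))
      have hnorm2 : zpowers a ≤ normalizer ((zpowers (x ^ 2) : Subgroup Γ) : Set Γ) := by
        rw [zpowers_le, mem_normalizer_iff_map_conj_eq, MonoidHom.map_zpowers]
        have : (MulAut.conj a).toMonoidHom (x ^ 2) = (x ^ 2)⁻¹ := by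
          show a * x ^ 2 * a⁻¹ = (x ^ 2)⁻¹
          rw [hai]
          calc a * x ^ 2 * a = a * x * x * a := by rw [_root_.sq]; simp only [mul_assoc]
            _ = a * x * (a * a) * x * a := by rw [ha2, mul_one]
            _ = (a * x * a) * (a * x * a) := by group
            _ = (x ^ 2)⁻¹ := by rw [hxinv]; group
        exact (congrArg zpowers this).trans (zpowers_inv)
      set W := zpowers a ⊔ zpowers (x ^ 2) with hW
      have hWn : normalizer (W : Set Γ) = ⊤ := by
        rw [eq_top_iff, ← hD]
        refine sup_le (le_sup_left.trans le_normalizer) ?_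
        rw [zpowers_le, ← Coprime.conj_smul_eq_self_iff]
        refine eq_of_le_of_card_ge ?_ (Coprime.card_conj_smul _ x).ge
        rw [← inv_inv x, Coprime.conj_inv_smul_le, hW]
        refine sup_le ?_ ?_
        · rw [← Coprime.conj_inv_smul_le, inv_inv]
          exact hconj
        · rw [← Coprime.conj_inv_smul_le, inv_inv]
          intro y hy
          rw [Coprime.mem_conj_smul] at hy
          refine mem_sup_right ?_
          obtain ⟨i, hi⟩ := hy
          refine ⟨i, ?_⟩
          show (x ^ 2) ^ i = y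
          calc (x ^ 2) ^ i = x * (x ^ 2) ^ i * x⁻¹ := by group
            _ = x * (x⁻¹ * y * x) * x⁻¹ := by rw [show (x ^ 2) ^ i = x⁻¹ * y * x from hi]
            _ = y := by group
      have hWtop : W = ⊤ := by
        by_contra hne
        exact hgen.normalizer_ne_top le_sup_left hne hWn
      obtain ⟨b, hb, z, hz, hbz⟩ := Coprime.exists_mul_of_mem_sup hnorm2
        (show x ∈ zpowers a ⊔ zpowers (x ^ 2) by rw [← hW, hWtop]; exact mem_top x)
      obtain ⟨j, rfl⟩ := hz
      obtain ⟨i, rfl⟩ := hb
      have hbz' : a ^ i = x ^ (1 - 2 * j) := by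
        have e : (x ^ 2) ^ j = x ^ (2 * j) := by rw [zpow_mul]; norm_cast
        have hbz2 : a ^ i * (x ^ 2) ^ j = x := by first | exact hbz | exact hbz.symm
        rw [e] at hbz2
        rw [zpow_sub, zpow_one, eq_mul_inv_iff_mul_eq]
        exact hbz2
      rcases Int.even_or_odd i with ⟨k, rfl⟩ | ⟨k, rfl⟩
      · have h1 : x ^ (1 - 2 * j) = 1 := by
          rw [← hbz', zpow_add, ← (Commute.refl a).mul_zpow, ha2, one_zpow]
        have hodd : Odd (orderOf x) := by
          have hd := orderOf_dvd_iff_zpow_eq_one.2 h1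
          have hn : Odd ((1 - 2 * j).natAbs) := Int.natAbs_odd.2 ⟨-j, by ring⟩
          exact hn.of_dvd_nat (Int.natCast_dvd.1 hd)
        refine hK (top_le_iff.1 (hD ▸ sup_le haL ?_))
        exact zpowers_le.2 (subset_closure (Set.mem_insert_of_mem _ ⟨hodd, hxinv⟩))
      · rw [zpow_add, zpow_one, zpow_mul, zpow_ofNat, _root_.sq, ha2, one_zpow, one_mul] at hbz'
        have hcomm : Commute a x := hbz' ▸ (Commute.refl x).zpow_left _
        have hx2 : x ^ 2 = 1 := by
          have : x = x⁻¹ := by
            conv_rhs => rw [← hxinv, hcomm.eq, mul_assoc, ha2, mul_one]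
          rw [_root_.sq]
          nth_rw 2 [this]
          exact mul_inv_cancel x
        rw [hW, hx2, zpowers_one_eq_bot, sup_bot_eq] at hWtop
        exact ha hWtop

theorem closure_oddInv_eq_top {G : Type u} [Group G] [Finite G] (α : MulAut G)
    (hα : orderOf α = 2)
    (hG : Subgroup.closure (Set.range (fun c : G => c * (α c)⁻¹)) = ⊤) :
    Subgroup.closure {g : G | Odd (orderOf g) ∧ α g = g⁻¹} = ⊤ := by
  have hα2 : α * α = 1 := by
    have := pow_orderOf_eq_one α
    rwa [hα, _root_.sq] at this
  have hinv : ∀ g, α (α g) = g := fun g => congrArg (fun e : MulAut G => e g) hα2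
  set A := Subgroup.zpowers α with hA
  set φ : ↥A →* MulAut G := A.subtype with hφ
  let a : G ⋊[φ] ↥A := SemidirectProduct.inr ⟨α, Subgroup.mem_zpowers α⟩
  haveI : Finite (G ⋊[φ] ↥A) :=
    Finite.of_equiv _ SemidirectProduct.equivProd.symm
  have ha2 : a * a = 1 := by
    show SemidirectProduct.inr _ * SemidirectProduct.inr _ = _
    rw [← map_mul]
    exact (congrArg SemidirectProduct.inr (Subtype.ext hα2 : _ = (1 : A))).trans (map_one _)
  have haut : ∀ g : G, a * SemidirectProduct.inl g * a⁻¹ = SemidirectProduct.inl (α g) := fun g => by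
    rw [← map_inv]
    exact (SemidirectProduct.inl_aut (⟨α, Subgroup.mem_zpowers α⟩ : A) g).symm
  have hgen : Zipper.GenG (Subgroup.zpowers a) := by
    set N := Subgroup.normalClosure ((Subgroup.zpowers a : Subgroup (G ⋊[φ] ↥A)) : Set (G ⋊[φ] ↥A))
    have haN : a ∈ N := Subgroup.subset_normalClosure (Subgroup.mem_zpowers a)
    have hl : ∀ g : G, (SemidirectProduct.inl g : G ⋊[φ] ↥A) ∈ N := by
      have hle : Subgroup.closure (Set.range (fun c : G => c * (α c)⁻¹)) ≤
          N.comap SemidirectProduct.inl := by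
        rw [Subgroup.closure_le]
        rintro _ ⟨g, rfl⟩
        show SemidirectProduct.inl (g * (α g)⁻¹) ∈ N
        have e : (SemidirectProduct.inl (g * (α g)⁻¹) : G ⋊[φ] ↥A) =
            (SemidirectProduct.inl g * a * (SemidirectProduct.inl g)⁻¹) * a⁻¹ := by
          rw [map_mul, ← map_inv α, ← haut, map_inv]; group
        rw [e]
        exact N.mul_mem (Subgroup.normalClosure_normal.conj_mem a haN _) (N.inv_mem haN)
      intro g
      exact hle (hG ▸ Subgroup.mem_top g)
    refine eq_top_iff.2 fun x _ => ?_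
    rw [← SemidirectProduct.inl_left_mul_inr_right x]
    refine N.mul_mem (hl _) ?_
    obtain ⟨i, hi⟩ := Subgroup.mem_zpowers_iff.1 x.right.2
    have : x.right = (⟨α, Subgroup.mem_zpowers α⟩ : A) ^ i := Subtype.ext (by simpa using hi.symm)
    rw [this, map_zpow]
    exact N.zpow_mem haN i
  set I : Set G := {g : G | Odd (orderOf g) ∧ α g = g⁻¹} with hI
  set L := Subgroup.closure I with hL
  have hLα : Stable α L := by
    intro x hx
    have : L ≤ L.comap α.toMonoidHom := by
      rw [hL, Subgroup.closure_le]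
      rintro y ⟨hy1, hy2⟩
      show α y ∈ Subgroup.closure I
      rw [hy2]
      exact inv_mem (Subgroup.subset_closure ⟨hy1, hy2⟩)
    exact this hx
  set L' := L.map (SemidirectProduct.inl : G →* G ⋊[φ] ↥A) with hL'
  have hnorm : Subgroup.zpowers a ≤ Subgroup.normalizer (L' : Set (G ⋊[φ] ↥A)) := by
    rw [Subgroup.zpowers_le, Subgroup.mem_normalizer_iff_map_conj_eq, hL', Subgroup.map_map]
    conv_rhs => rw [← hLα.map_eq hinv, Subgroup.map_map]
    congr 1
    ext g
    · simp [a, hφ]
    · simp [a, hφ]
  have htop : Subgroup.zpowers a ⊔ L' = ⊤ := by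
    rw [eq_top_iff, ← generate_aux _ _ le_rfl a ha2 hgen, Subgroup.closure_le]
    rintro x (rfl | ⟨hxo, hxi⟩)
    · exact Subgroup.mem_sup_left (Subgroup.mem_zpowers _)
    refine Subgroup.mem_sup_right ?_
    have hr : x.right = 1 := by
      rw [← orderOf_eq_one_iff]
      refine Nat.eq_one_of_dvd_coprimes (Nat.coprime_two_right.2 hxo)
        (orderOf_map_dvd SemidirectProduct.rightHom x) ?_
      rw [← hα]
      exact (Nat.card_zpowers α) ▸ orderOf_dvd_natCard x.right
    have hxl : x = SemidirectProduct.inl x.left := by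
      conv_lhs => rw [← SemidirectProduct.inl_left_mul_inr_right x, hr, map_one, mul_one]
    refine ⟨x.left, Subgroup.subset_closure ⟨?_, ?_⟩, hxl.symm⟩
    · rw [hxl, orderOf_injective SemidirectProduct.inl SemidirectProduct.inl_injective] at hxo
      exact hxo
    · have hai : a⁻¹ = a := inv_eq_of_mul_eq_one_right ha2
      have h := haut x.left
      rw [hai, ← hxl, hxi, hxl, ← map_inv] at h
      exact (SemidirectProduct.inl_injective h).symm
  refine eq_top_iff.2 fun g _ => ?_
  obtain ⟨b, hb, l, ⟨l0, hl0, rfl⟩, hbl⟩ := Cfsg.Agent.Coprime.exists_mul_of_mem_sup hnorm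
    (g := SemidirectProduct.inl g) (htop ▸ Subgroup.mem_top _)
  obtain ⟨i, rfl⟩ := Subgroup.mem_zpowers_iff.1 hb
  have hr := congrArg SemidirectProduct.right hbl
  have hi : a ^ i = 1 := by
    simp only [SemidirectProduct.right_inl, SemidirectProduct.mul_right, mul_one] at hr
    have e : a ^ i = SemidirectProduct.inr ((⟨α, Subgroup.mem_zpowers α⟩ : A) ^ i) :=
      (map_zpow _ _ _).symm
    rw [e, SemidirectProduct.right_inr] at hr
    first
      | rw [e, hr, map_one]
      | rw [e, ← hr, map_one]
  rw [hi, one_mul] at hbl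
  have : g = l0 := SemidirectProduct.inl_injective (by first | exact hbl | exact hbl.symm)
  exact this ▸ hl0

end Cfsg.Agent.InvBound
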