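import Cfsg.Agent.InvBound.Basic
import Cfsg.Agent.Cores.Fitting

/-!
A group with an involutory automorphism having few fixed points and few odd inverted elements,
and no non-trivial inverted normal abelian subgroup, has bounded order.
-/

set_option autoImplicit false
set_option linter.style.haveILetI false

open Subgroup
open scoped Nat commutatorElement

namespace Cfsg.Agent.InvBound

universe u

variable {G : Type u} [Group G]

/-- Bound for invariant abelian subgroups. -/
def abelianBound (c m : ℕ) : ℕ := c * (c ^ c ! * m)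

/-- Bound for invariant nilpotent normal subgroups. -/
def nilBound (c m : ℕ) : ℕ := abelianBound c m * abelianBound c m * abelianBound c m ^ abelianBound c m

/-- Bound for invariant solvable normal subgroups. -/
def solvBound (c m : ℕ) : ℕ := nilBound c m * nilBound c m ^ nilBound c m

/-- Index bound for a normal invariant subgroup centralising an element. -/
def coreBound (c : ℕ) : ℕ := (2 * c ^ 2)! * (2 * c ^ 2)!

/-- Bound for groups with trivial Fitting subgroup. -/
def semisimpleBound : ℕ → ℕ
  | 0 => 1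
  | c + 1 => semisimpleBound c + (c + 1) +
      semisimpleBound c * coreBound (c + 1) ^ coreBound (c + 1)

theorem stable_normal_char [Finite G] (α : MulAut G) (hα : ∀ g, α (α g) = g) (H : Subgroup G)
    (hH : Stable α H) (K : Subgroup H) [K.Characteristic] : Stable α (K.map H.subtype) := by
  rintro _ ⟨x, hx, rfl⟩
  refine ⟨restr α hα H hH x, ?_, rfl⟩
  exact (Subgroup.characteristic_iff_le_comap.1 inferInstance (restr α hα H hH)) hx

theorem stable_center (α : MulAut G) (H : Subgroup G) (hH : Stable α H)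
    (hα : ∀ g, α (α g) = g) : Stable α (H ⊓ Subgroup.centralizer (H : Set G)) := by
  rintro x ⟨hx, hxc⟩
  refine ⟨hH x hx, Subgroup.mem_centralizer_iff.2 fun y hy => ?_⟩
  have := congrArg α (Subgroup.mem_centralizer_iff.1 hxc (α y) (hH y hy))
  rwa [map_mul, map_mul, hα] at this

theorem stable_centralizer (α : MulAut G) (hα : ∀ g, α (α g) = g) {A : Subgroup G}
    (hA : Stable α A) : Stable α (Subgroup.centralizer (A : Set G)) := by
  intro x hx
  refine Subgroup.mem_centralizer_iff.2 fun y hy => ?_
  have := congrArg α (Subgroup.mem_centralizer_iff.1 hx (α y) (hA y hy))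
  rwa [map_mul, map_mul, hα] at this

theorem stable_inf {α : MulAut G} {A B : Subgroup G} (hA : Stable α A) (hB : Stable α B) :
    Stable α (A ⊓ B) := fun x hx => ⟨hA x hx.1, hB x hx.2⟩

theorem stable_sup {α : MulAut G} {A B : Subgroup G} (hA : Stable α A) (hB : Stable α B) :
    Stable α (A ⊔ B) := fun _ hx =>
  (sup_le (fun y hy => Subgroup.mem_sup_left (hA y hy))
    (fun y hy => Subgroup.mem_sup_right (hB y hy)) : A ⊔ B ≤ (A ⊔ B).comap α.toMonoidHom) hx

section NoInverted

variable [Finite G] (α : MulAut G) (hα : ∀ g, α (α g) = g) {c m : ℕ}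
  (hc : Nat.card (fix α) ≤ c) (hm : Nat.card (OddInv α) ≤ m)
  (h3 : ∀ A : Subgroup G, A.Normal → IsMulCommutative A → (∀ x ∈ A, α x = x⁻¹) → A = ⊥)

include hα hc hm h3

theorem exponent_abelian {A : Subgroup G} (hAn : A.Normal) (hA : IsMulCommutative A)
    (hAs : Stable α A) : ∀ x ∈ A, x ^ c ! = 1 := by
  have hcomm : ∀ {a b : G}, a ∈ A → b ∈ A → Commute a b := fun ha hb =>
    congrArg Subtype.val (hA.is_comm.comm ⟨_, ha⟩ ⟨_, hb⟩)
  let ρ : A →* G :=
    { toFun := fun x => (x : G) ^ (c !)
      map_one' := by simp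
      map_mul' := fun x y => by rw [Subgroup.coe_mul]; exact (hcomm x.2 y.2).mul_pow _ }
  have hn : ρ.range.Normal := ⟨by
    rintro _ ⟨x, rfl⟩ g
    exact ⟨⟨g * x * g⁻¹, hAn.conj_mem x x.2 g⟩, conj_pow⟩⟩
  have hbot := h3 ρ.range hn ⟨⟨fun a b => Subtype.ext (by
      obtain ⟨x, hx⟩ := a.2
      obtain ⟨y, hy⟩ := b.2
      rw [Subgroup.coe_mul, Subgroup.coe_mul, ← hx, ← hy]
      exact ((hcomm x.2 y.2).pow_pow _ _).eq)⟩⟩ (by
    rintro _ ⟨x, rfl⟩
    show α ((x : G) ^ c !) = ((x : G) ^ c !)⁻¹
    refine eq_inv_of_mul_eq_one_right ?_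
    rw [map_pow, ← (hcomm x.2 (hAs x x.2)).mul_pow, ← orderOf_dvd_iff_pow_eq_one]
    have hfix : (x : G) * α x ∈ fix α := by
      rw [mem_fix, map_mul, hα]
      exact (hcomm (hAs x x.2) x.2).eq
    have hpos : 0 < orderOf ((x : G) * α x) := orderOf_pos _
    refine Nat.dvd_factorial hpos (le_trans ?_ hc)
    exact Nat.le_of_dvd Nat.card_pos (Subgroup.orderOf_dvd_natCard _ hfix))
  intro x hx
  exact Subgroup.mem_bot.1 (hbot ▸ ⟨⟨x, hx⟩, rfl⟩)

theorem card_abelian_normal {A : Subgroup G} (hAn : A.Normal) (hA : IsMulCommutative A)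
    (hAs : Stable α A) : Nat.card A ≤ abelianBound c m :=
  card_abelian_le α hα (Nat.factorial_ne_zero c) hc hm A hA hAs
    (exponent_abelian α hα hc hm h3 hAn hA hAs)

theorem card_nilpotent_normal {P : Subgroup G} (hPn : P.Normal) (hP : Group.IsNilpotent P)
    (hPs : Stable α P) : Nat.card P ≤ nilBound c m := by
  obtain ⟨A, -, hmax⟩ := Finite.exists_le_maximal
    (p := fun A : Subgroup G => A.Normal ∧ IsMulCommutative A ∧ Stable α A ∧ A ≤ P)
    (a := (⊥ : Subgroup G))
    ⟨inferInstance, ⟨⟨fun a b => Subsingleton.elim _ _⟩⟩,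
      fun x hx => by rw [Subgroup.mem_bot.1 hx, map_one]; exact one_mem _, bot_le⟩
  obtain ⟨hAn, hAc, hAs, hAP⟩ := hmax.1
  haveI := hAn
  haveI := hPn
  set a := abelianBound c m with ha
  have hAcard : Nat.card A ≤ a := card_abelian_normal α hα hc hm h3 hAn hAc hAs
  set C := P ⊓ Subgroup.centralizer (A : Set G) with hC
  haveI hCn : C.Normal := by rw [hC]; infer_instance
  have hCs : Stable α C := stable_inf hPs (stable_centralizer α hα hAs)
  have hAC : A ≤ C := le_inf hAP fun x hx => Subgroup.mem_centralizer_iff.2 fun y hy =>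
    congrArg Subtype.val (hAc.is_comm.comm ⟨y, hy⟩ ⟨x, hx⟩)
  have hAcen : ⁅A, C⁆ = ⊥ := by
    rw [Subgroup.commutator_eq_bot_iff_le_centralizer]
    intro x hx
    refine Subgroup.mem_centralizer_iff.2 fun y hy => ?_
    exact (Subgroup.mem_centralizer_iff.1 hy.2 x hx).symm
  have hsat : ∀ W : Subgroup G, W.Normal → IsMulCommutative W → Stable α W → W ≤ P → A ≤ W →
      W ≤ A := fun W h1 h2 h3' h4 h5 => hmax.2 ⟨h1, h2, h3', h4⟩ h5
  -- `C' ≤ A`
  have hder : ⁅C, C⁆ ≤ A := by
    have hCnil : Group.IsNilpotent C :=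
      Group.nilpotent_of_mulEquiv (Subgroup.subgroupOfEquivOfLe (inf_le_left : C ≤ P))
    obtain ⟨N, hN⟩ := (Subgroup.isNilpotent_iff_lowerCentralSeries C).1 hCnil
    have key : ∀ j i, N ≤ i + j → 1 ≤ i → C.lowerCentralSeries i ≤ A := by
      intro j
      induction j with
      | zero =>
        intro i hi _
        exact le_trans (C.lowerCentralSeries_antitone (by omega : N ≤ i)) (hN.le.trans bot_le)
      | succ j ih =>
        intro i hi hi1
        set W := C.lowerCentralSeries i with hW
        haveI : W.Normal := by rw [hW]; infer_instance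
        have hWC : W ≤ C := by
          have := C.lowerCentralSeries_antitone (Nat.zero_le i)
          rwa [Subgroup.lowerCentralSeries_zero] at this
        have hW1 : W ≤ ⁅C, C⁆ := by
          have := C.lowerCentralSeries_antitone hi1
          rwa [Subgroup.lowerCentralSeries_succ, Subgroup.lowerCentralSeries_zero] at this
        have hWA : ⁅W, C⁆ ≤ A := by
          rw [hW, ← Subgroup.lowerCentralSeries_succ]
          exact ih (i + 1) (by omega) (by omega)
        have h1 : ⁅⁅W, C⁆, C⁆ = ⊥ :=
          eq_bot_iff.2 ((Subgroup.commutator_mono hWA le_rfl).trans hAcen.le)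
        have h2 : ⁅⁅C, W⁆, C⁆ = ⊥ := by rwa [Subgroup.commutator_comm C W]
        have h3' : ⁅⁅C, C⁆, W⁆ = ⊥ := Subgroup.commutator_commutator_eq_bot_of_rotate h2 h1
        have hWW : IsMulCommutative ↥(A ⊔ W) := by
          have hle : A ⊔ W ≤ Subgroup.centralizer ((A ⊔ W : Subgroup G) : Set G) := by
            rw [← Subgroup.commutator_eq_bot_iff_le_centralizer, Subgroup.commutator_eq_bot_iff_le_centralizer]
            refine sup_le ?_ ?_
            · refine le_trans ?_ (Subgroup.centralizer_le (sup_le hAC hWC))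
              exact Subgroup.commutator_eq_bot_iff_le_centralizer.1 hAcen
            · intro w hw
              refine Subgroup.mem_centralizer_iff.2 ?_
              have hcw : A ⊔ W ≤ Subgroup.centralizer ({w} : Set G) := by
                refine sup_le (fun x hx => ?_) (fun x hx => ?_)
                · rw [Subgroup.mem_centralizer_singleton_iff]
                  exact (Subgroup.mem_centralizer_iff.1 (hWC hw).2 x hx)
                · rw [Subgroup.mem_centralizer_singleton_iff]
                  exact (Subgroup.mem_centralizer_iff.1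
                    (Subgroup.commutator_eq_bot_iff_le_centralizer.1 h3' (hW1 hw)) x hx)
              exact fun y hy => Subgroup.mem_centralizer_singleton_iff.1 (hcw hy)
          exact ⟨⟨fun a b => Subtype.ext (Subgroup.mem_centralizer_iff.1 (hle b.2) a a.2)⟩⟩
        have hWs : Stable α W := fun x hx => by
          have := Subgroup.map_lowerCentralSeries (S := C) α.toMonoidHom i
          rw [hCs.map_eq hα] at this
          rw [hW, ← this]
          exact ⟨x, hx, rfl⟩
        exact le_sup_right.trans (hsat (A ⊔ W) inferInstance hWW (stable_sup hAs hWs)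
          (sup_le hAP (hWC.trans inf_le_left)) le_sup_left)
    have := key N 1 (by omega) le_rfl
    rwa [Subgroup.lowerCentralSeries_succ, Subgroup.lowerCentralSeries_zero] at this
  -- `C / A` has exponent dividing `c!`
  have hexpA := exponent_abelian α hα hc hm h3 hAn hAc hAs
  have hpow : ∀ u ∈ C, u ^ c ! ∈ A := by
    intro u hu
    set Z := C ⊓ Subgroup.centralizer (C : Set G) with hZ
    haveI : Z.Normal := by rw [hZ]; infer_instance
    have hZA : Z ≤ A := hsat Z inferInstance
      ⟨⟨fun a b => Subtype.ext (Subgroup.mem_centralizer_iff.1 b.2.2 a a.2.1)⟩⟩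
      (stable_center α C hCs hα) (inf_le_left.trans inf_le_left)
      (le_inf hAC (Subgroup.commutator_eq_bot_iff_le_centralizer.1 hAcen))
    refine hZA ⟨C.pow_mem hu _, Subgroup.mem_centralizer_iff.2 fun v hv => ?_⟩
    have hz : ∀ i : ℕ, u ^ i * v * (u ^ i)⁻¹ * v⁻¹ = ⁅u, v⁆ ^ i := by
      intro i
      induction i with
      | zero => simp
      | succ i ih =>
        have hzu : Commute ⁅u, v⁆ u := by
          have := Subgroup.commutator_eq_bot_iff_le_centralizer.1 hAcen
            (hder (Subgroup.commutator_mem_commutator hu hv))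
          exact ((Subgroup.mem_centralizer_iff.1 this u hu).symm :)
        calc u ^ (i + 1) * v * (u ^ (i + 1))⁻¹ * v⁻¹
            = u * (u ^ i * v * (u ^ i)⁻¹ * v⁻¹) * (v * u⁻¹ * v⁻¹) := by rw [pow_succ']; group
          _ = (u * ⁅u, v⁆ ^ i * u⁻¹) * ⁅u, v⁆ := by rw [ih, commutatorElement_def]; group
          _ = _ := by rw [(hzu.pow_left i).symm.eq, mul_inv_cancel_right, ← pow_succ]
    have h1 := hz (c !)
    rw [hexpA _ (hder (Subgroup.commutator_mem_commutator hu hv))] at h1
    have h2 : u ^ c ! * v * (u ^ c !)⁻¹ = v := mul_inv_eq_one.1 h1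
    calc v * u ^ c ! = (u ^ c ! * v * (u ^ c !)⁻¹) * u ^ c ! := by rw [h2]
      _ = u ^ c ! * v := by group
  have hCcard : Nat.card C ≤ a * a := by
    set π := QuotientGroup.mk' A with hπ
    set β := quotAut α hα A hAs with hβ
    have hπs := QuotientGroup.mk'_surjective A
    have hcomm : IsMulCommutative (C.map π) := ⟨⟨fun x y => Subtype.ext (by
      obtain ⟨g, hg, hgx⟩ := x.2
      obtain ⟨h, hh, hhy⟩ := y.2
      rw [Subgroup.coe_mul, Subgroup.coe_mul, ← hgx, ← hhy, ← commutatorElement_eq_one_iff_mul_comm,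
        ← map_commutatorElement, hπ, QuotientGroup.mk'_apply, QuotientGroup.eq_one_iff]
      exact hder (Subgroup.commutator_mem_commutator hg hh))⟩⟩
    have hb : Nat.card (C.map π) ≤ a := by
      refine card_abelian_le β (quotAut_invol α hα A hAs) (Nat.factorial_ne_zero c)
        ((card_fix_le π hπs α β (fun g => rfl)).trans hc)
        ((card_oddInv_le π hπs α β (fun g => rfl) hα).trans hm) _ hcomm ?_ ?_
      · rintro _ ⟨g, hg, rfl⟩
        exact ⟨α g, hCs g hg, rfl⟩
      · rintro _ ⟨g, hg, rfl⟩
        rw [← map_pow, hπ, QuotientGroup.mk'_apply, QuotientGroup.eq_one_iff]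
        exact hpow g hg
    have h1 : Nat.card C = Nat.card A * Nat.card (C.map π) := by
      have := Subgroup.card_mul_index (π.comp C.subtype).ker
      rw [Subgroup.index_ker, MonoidHom.range_comp, Subgroup.range_subtype] at this
      rw [← this]
      congr 1
      refine Nat.card_congr
        { toFun := fun x => ⟨((x : C) : G), ?_⟩
          invFun := fun x => ⟨⟨x, hAC x.2⟩, ?_⟩
          left_inv := fun x => rfl
          right_inv := fun x => rfl }
      · exact (QuotientGroup.eq_one_iff (N := A) _).1 (MonoidHom.mem_ker.1 x.2)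
      · exact MonoidHom.mem_ker.2 ((QuotientGroup.eq_one_iff (N := A) _).2 x.2)
    rw [h1]
    exact Nat.mul_le_mul hAcard hb
  calc Nat.card P ≤ Nat.card C * a ^ a := card_le_centralizer_mul P A hAcard
    _ ≤ _ := Nat.mul_le_mul_right _ hCcard

theorem card_solvable_normal {R : Subgroup G} (hRn : R.Normal) (hR : Group.IsSolvable R)
    (hRs : Stable α R) : Nat.card R ≤ solvBound c m := by
  haveI := hRn
  haveI := hR
  set F := (Cfsg.fittingSubgroup R).map R.subtype with hF
  haveI hFn : F.Normal := by rw [hF]; infer_instance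
  have hFnil : Group.IsNilpotent F := by
    haveI := Cores.fittingSubgroup_isNilpotent (G := R)
    exact Group.nilpotent_of_surjective _
      (R.subtype.subgroupMap_surjective (Cfsg.fittingSubgroup R))
  have hFs : Stable α F := stable_normal_char α hα R hRs _
  have hb := card_nilpotent_normal α hα hc hm h3 hFn hFnil hFs
  refine (card_le_centralizer_mul R F hb).trans (Nat.mul_le_mul_right _ ?_)
  refine le_trans (Subgroup.card_le_of_le ?_) hb
  rintro x ⟨hxR, hxc⟩
  have := Cores.centralizer_fittingSubgroup_le (G := R) (x := (⟨x, hxR⟩ : R)) (by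
    rw [Subgroup.mem_centralizer_iff]
    intro y hy
    exact Subtype.ext (Subgroup.mem_centralizer_iff.1 hxc y ⟨y, hy, rfl⟩))
  exact ⟨_, this, rfl⟩

end NoInverted

/-- Brauer–Fowler: few fixed points give an element with a large centralizer. -/
theorem exists_large_centralizer [Finite G] (α : MulAut G) (hα : ∀ g, α (α g) = g) :
    Nat.card G ≤ Nat.card (fix α) ∨
      ∃ p : G, p ≠ 1 ∧ (Subgroup.centralizer ({p} : Set G)).index ≤ 2 * Nat.card (fix α) ^ 2 := by
  classical
  haveI := Fintype.ofFinite G
  by_contra hcon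
  push Not at hcon
  obtain ⟨hbig, hall⟩ := hcon
  set c := Nat.card (fix α) with hc
  set R : Finset G := Finset.univ.image (fun g : G => g * (α g)⁻¹) with hR
  set K := R.card with hK
  have hcpos : 0 < c := Nat.card_pos
  have hGK : Nat.card G ≤ K * c := by
    have h := card_le_mul_of_fiber (fun g : G => (⟨g * (α g)⁻¹, Finset.mem_image_of_mem _
      (Finset.mem_univ g)⟩ : R)) c fun v => ?_
    · simpa [hK] using h
    rcases isEmpty_or_nonempty {g : G // (⟨g * (α g)⁻¹, Finset.mem_image_of_mem _
        (Finset.mem_univ g)⟩ : R) = v} with he | ⟨⟨g₀, hg₀⟩⟩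
    · rw [Nat.card_of_isEmpty]; exact Nat.zero_le _
    refine Nat.card_le_card_of_injective (fun g => (⟨(g₀)⁻¹ * g.1, ?_⟩ : fix α)) ?_
    · have e : g₀ * (α g₀)⁻¹ = g.1 * (α g.1)⁻¹ := congrArg Subtype.val (hg₀.trans g.2.symm)
      rw [mem_fix, map_mul, map_inv]
      calc (α g₀)⁻¹ * α g.1 = g₀⁻¹ * (g₀ * (α g₀)⁻¹) * α g.1 := by group
        _ = g₀⁻¹ * g.1 := by rw [e]; group
    · intro a b hab
      exact Subtype.ext (mul_left_cancel (congrArg (fun x : fix α => (x : G)) hab))
  have hinv : ∀ a ∈ R, α a = a⁻¹ := by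
    intro a ha
    obtain ⟨g, -, rfl⟩ := Finset.mem_image.1 ha
    rw [map_mul, map_inv, hα, mul_inv_rev, inv_inv]
  have hmaps : ∀ q ∈ R.offDiag, q.1 * q.2⁻¹ ∈ (Finset.univ.erase (1 : G)) := by
    intro q hq
    rw [Finset.mem_offDiag] at hq
    exact Finset.mem_erase.2 ⟨fun e => hq.2.2 (mul_inv_eq_one.1 e), Finset.mem_univ _⟩
  have hfib : ∀ p ∈ Finset.univ.erase (1 : G),
      (R.offDiag.filter fun q => q.1 * q.2⁻¹ = p).card * (2 * c ^ 2) ≤ Nat.card G := by
    intro p hp
    rcases Finset.eq_empty_or_nonempty (R.offDiag.filter fun q => q.1 * q.2⁻¹ = p) with h | ⟨q₀, hq₀⟩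
    · simp [h]
    have hp1 := (Finset.mem_erase.1 hp).1
    have h1 : (R.offDiag.filter fun q => q.1 * q.2⁻¹ = p).card ≤
        Nat.card (Subgroup.centralizer ({p} : Set G)) := by
      rw [Nat.card_eq_fintype_card, ← Fintype.card_coe]
      refine Fintype.card_le_of_injective (fun q => ⟨q.1.1 * q₀.1⁻¹, ?_⟩) ?_
      · have hq := Finset.mem_filter.1 q.2
        rw [Finset.mem_filter] at hq₀
        obtain ⟨hqm, hqp⟩ := hq
        rw [Finset.mem_offDiag] at hqm
        have hm₀ := Finset.mem_offDiag.1 hq₀.1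
        have key : ∀ a b : G, α a = a⁻¹ → α b = b⁻¹ → a * b⁻¹ = p → α p = a⁻¹ * p⁻¹ * a := by
          intro a b ha hb hab
          rw [← hab, map_mul, map_inv, ha, hb, inv_inv]; group
        have e1 := key _ _ (hinv _ hqm.1) (hinv _ hqm.2.1) hqp
        have e2 := key _ _ (hinv _ hm₀.1) (hinv _ hm₀.2.1) hq₀.2
        have e3 : q.1.1⁻¹ * p⁻¹ * q.1.1 = q₀.1⁻¹ * p⁻¹ * q₀.1 := e1.symm.trans e2
        rw [Subgroup.mem_centralizer_singleton_iff]
        have e4 : q.1.1⁻¹ * p * q.1.1 = q₀.1⁻¹ * p * q₀.1 := by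
          have := congrArg (·⁻¹) e3
          simpa [mul_assoc] using this
        calc q.1.1 * q₀.1⁻¹ * p = q.1.1 * (q₀.1⁻¹ * p * q₀.1) * q₀.1⁻¹ := by group
          _ = q.1.1 * (q.1.1⁻¹ * p * q.1.1) * q₀.1⁻¹ := by rw [e4]
          _ = p * (q.1.1 * q₀.1⁻¹) := by group
      · intro x y hxy
        have hx := (Finset.mem_filter.1 x.2).2
        have hy := (Finset.mem_filter.1 y.2).2
        have h : x.1.1 = y.1.1 := mul_right_cancel (congrArg Subtype.val hxy)
        refine Subtype.ext (Prod.ext h ?_)
        rw [h] at hx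
        exact inv_injective (mul_left_cancel (hx.trans hy.symm))
    have h2 := hall p hp1
    have h3 := Subgroup.card_mul_index (Subgroup.centralizer ({p} : Set G))
    calc _ ≤ Nat.card (Subgroup.centralizer ({p} : Set G)) *
          (Subgroup.centralizer ({p} : Set G)).index := Nat.mul_le_mul h1 h2.le
      _ = _ := h3
  have htot : R.offDiag.card * (2 * c ^ 2) ≤ (Finset.univ.erase (1 : G)).card * Nat.card G := by
    rw [Finset.card_eq_sum_card_fiberwise hmaps, Finset.sum_mul]
    refine (Finset.sum_le_card_nsmul _ _ _ hfib).trans ?_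
    rw [smul_eq_mul]
  rw [Finset.offDiag_card, ← hK, Finset.card_erase_of_mem (Finset.mem_univ _), Finset.card_univ,
    ← Nat.card_eq_fintype_card] at htot
  have hK2 : 2 ≤ K := by nlinarith
  have hKK : K ≤ K * K := Nat.le_mul_self K
  have h4 : (K * K - K) * (2 * c ^ 2) + K * (2 * c ^ 2) = K * K * (2 * c ^ 2) := by
    rw [← add_mul, Nat.sub_add_cancel hKK]
  have h5 : (Nat.card G - 1) * Nat.card G < (K * c) * (K * c) :=
    lt_of_lt_of_le (Nat.mul_lt_mul_of_pos_right (Nat.sub_lt Nat.card_pos one_pos) Nat.card_pos)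
      (Nat.mul_le_mul hGK hGK)
  have h6 : K * (2 * c ^ 2) ≤ K * K * c ^ 2 := by
    calc K * (2 * c ^ 2) = 2 * (K * c ^ 2) := by ring
      _ ≤ K * (K * c ^ 2) := Nat.mul_le_mul_right _ hK2
      _ = _ := by ring
  nlinarith

theorem card_semisimple : ∀ (c : ℕ) (G : Type u) [Group G] [Finite G] (α : MulAut G),
    (∀ g, α (α g) = g) → Nat.card (fix α) ≤ c → Cfsg.fittingSubgroup G = ⊥ →
      Nat.card G ≤ semisimpleBound c := by
  intro c
  induction c with
  | zero =>
    intro G _ _ α _ hc _
    exact absurd hc (Nat.not_le_of_gt Nat.card_pos)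
  | succ c ih =>
    intro G _ _ α hα hc hF
    rw [semisimpleBound]
    rcases exists_large_centralizer α hα with h | ⟨p, hp1, hp⟩
    · omega
    have hp' : (Subgroup.centralizer ({p} : Set G)).index ≤ 2 * (c + 1) ^ 2 :=
      hp.trans (Nat.mul_le_mul_left _ (Nat.pow_le_pow_left hc 2))
    set N₀ := (Subgroup.centralizer ({p} : Set G)).normalCore with hN₀
    have hN₀i : N₀.index ≤ (2 * (c + 1) ^ 2)! := by
      rw [hN₀, Subgroup.normalCore_eq_ker, Subgroup.index_ker]
      refine (Subgroup.card_le_card_group _).trans ?_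
      rw [Nat.card_perm, ← Subgroup.index_eq_card]
      exact Nat.factorial_le hp'
    set N := N₀ ⊓ N₀.comap α.toMonoidHom with hN
    haveI hNn : N.Normal := by rw [hN]; infer_instance
    have hNs : Stable α N := fun x hx => ⟨hx.2, by
      show α (α x) ∈ N₀
      rw [hα]; exact hx.1⟩
    have hNi : N.index ≤ coreBound (c + 1) := by
      refine Subgroup.index_inf_le.trans (Nat.mul_le_mul hN₀i ?_)
      rw [Subgroup.index_comap_of_surjective _ α.surjective]
      exact hN₀i
    set W := Subgroup.centralizer (N : Set G) with hW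
    haveI hWn : W.Normal := by rw [hW]; infer_instance
    have hWs : Stable α W := stable_centralizer α hα hNs
    have habel : ∀ A : Subgroup G, A.Normal → IsMulCommutative A → A = ⊥ := fun A h1 h2 =>
      eq_bot_iff.2 (hF ▸ Cores.le_fittingSubgroup h1 (by
        letI : CommGroup A := IsMulCommutative.instCommGroup
        exact CommGroup.isNilpotent))
    have hpW : p ∈ W := by
      rw [hW, Subgroup.mem_centralizer_iff]
      intro y hy
      exact Subgroup.mem_centralizer_singleton_iff.1 ((Subgroup.normalCore_le _) hy.1)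
    have hWN : W ⊓ N = ⊥ := habel _ inferInstance
      ⟨⟨fun a b => Subtype.ext (Subgroup.mem_centralizer_iff.1 b.2.1 a a.2.2)⟩⟩
    have hWcard : Nat.card W ≤ coreBound (c + 1) := by
      refine le_trans ?_ hNi
      rw [Subgroup.index_eq_card]
      refine Nat.card_le_card_of_injective (fun x : W => (QuotientGroup.mk (x : G) : G ⧸ N)) ?_
      intro x y hxy
      have h1 : (x : G)⁻¹ * y ∈ W ⊓ N :=
        ⟨W.mul_mem (W.inv_mem x.2) y.2, QuotientGroup.eq.1 hxy⟩
      rw [hWN, Subgroup.mem_bot, inv_mul_eq_one] at h1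
      exact Subtype.ext h1
    set M := Subgroup.centralizer (W : Set G) with hM
    haveI hMn : M.Normal := by rw [hM]; infer_instance
    have hMs : Stable α M := stable_centralizer α hα hWs
    have hWM : W ⊓ M = ⊥ := habel _ inferInstance
      ⟨⟨fun a b => Subtype.ext (Subgroup.mem_centralizer_iff.1 b.2.2 a a.2.1)⟩⟩
    -- a fixed point in `W` outside `M`
    obtain ⟨d, hdW, hdfix, hd1⟩ : ∃ d ∈ W, α d = d ∧ d ≠ 1 := by
      by_contra hne
      push Not at hne
      have hfpf : MonoidHom.FixedPointFree (restr α hα W hWs) := fun x hx =>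
        Subtype.ext (hne x x.2 (congrArg Subtype.val hx))
      have hWc : IsMulCommutative W := ⟨⟨fun a b => (hfpf.commute_all_of_involutive
        (fun x => Subtype.ext (hα _)) a b).eq⟩⟩
      have := habel W hWn hWc
      exact hp1 (Subgroup.mem_bot.1 (this ▸ hpW))
    have hfixM : Nat.card (fix (restr α hα M hMs)) ≤ c := by
      have hlt : Nat.card (fix (restr α hα M hMs)) < Nat.card (fix α) := by
        let f : fix (restr α hα M hMs) → fix α := fun x =>
          ⟨((x : M) : G), congrArg Subtype.val x.2⟩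
        have hf : Function.Injective f := fun a b hab =>
          Subtype.ext (Subtype.ext (congrArg (fun x : fix α => (x : G)) hab))
        refine lt_of_le_of_ne (Nat.card_le_card_of_injective f hf) fun he => ?_
        obtain ⟨x, hx⟩ := ((Nat.bijective_iff_injective_and_card f).2 ⟨hf, he⟩).2 ⟨d, hdfix⟩
        have hdM : d ∈ M := (show ((x : M) : G) = d from congrArg (fun x : fix α => (x : G)) hx) ▸ (x : M).2
        exact hd1 (Subgroup.mem_bot.1 (hWM ▸ ⟨hdW, hdM⟩))
      omega
    have hFM : Cfsg.fittingSubgroup M = ⊥ := by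
      have := Cores.map_subtype_fittingSubgroup_le (N := M)
      rw [hF, le_bot_iff] at this
      exact (Subgroup.map_eq_bot_iff_of_injective _ M.subtype_injective).1 this
    have hMcard := ih M (restr α hα M hMs) (fun x => Subtype.ext (hα _)) hfixM hFM
    have h := card_le_centralizer_mul ⊤ W hWcard
    rw [top_inf_eq, Subgroup.card_top] at h
    have h' := Nat.mul_le_mul_right (coreBound (c + 1) ^ coreBound (c + 1)) hMcard
    exact (h.trans h').trans (Nat.le_add_left _ _)

/-- The bound for a group without inverted normal abelian subgroups. -/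
def centerlessBound (c m : ℕ) : ℕ := solvBound c m * semisimpleBound c

theorem card_le_centerlessBound [Finite G] (α : MulAut G) (hα : ∀ g, α (α g) = g) {c m : ℕ}
    (hc : Nat.card (fix α) ≤ c) (hm : Nat.card (OddInv α) ≤ m)
    (h3 : ∀ A : Subgroup G, A.Normal → IsMulCommutative A → (∀ x ∈ A, α x = x⁻¹) → A = ⊥) :
    Nat.card G ≤ centerlessBound c m := by
  obtain ⟨R, -, hmax⟩ := Finite.exists_le_maximal
    (p := fun R : Subgroup G => R.Normal ∧ Group.IsSolvable R ∧ Stable α R) (a := (⊥ : Subgroup G))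
    ⟨inferInstance, inferInstance,
      fun x hx => by rw [Subgroup.mem_bot.1 hx, map_one]; exact one_mem _⟩
  obtain ⟨hRn, hR, hRs⟩ := hmax.1
  haveI := hRn
  haveI := hR
  set π := QuotientGroup.mk' R with hπ
  set β := quotAut α hα R hRs with hβ
  have hπs := QuotientGroup.mk'_surjective R
  have hF : Cfsg.fittingSubgroup (G ⧸ R) = ⊥ := by
    set F := Cfsg.fittingSubgroup (G ⧸ R) with hF
    haveI : Group.IsNilpotent F := Cores.fittingSubgroup_isNilpotent
    set S := F.comap π with hS
    haveI : S.Normal := by rw [hS]; infer_instance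
    have hSol : Group.IsSolvable S := by
      let f : S →* F := (π.comp S.subtype).codRestrict F fun x => x.2
      let g : R →* S := Subgroup.inclusion (fun x hx => by
        show π x ∈ F
        rw [hπ, QuotientGroup.mk'_apply, (QuotientGroup.eq_one_iff x).2 hx]
        exact one_mem _)
      exact Group.isSolvable_of_ker_le_range g f fun x hx => ⟨⟨((x : S) : G),
        (QuotientGroup.eq_one_iff (N := R) _).1 (congrArg Subtype.val (MonoidHom.mem_ker.1 hx))⟩,
        rfl⟩
    have hSs : Stable α S := fun x hx =>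
      (Subgroup.characteristic_iff_le_comap.1
        (inferInstance : F.Characteristic) β) (show π x ∈ F from hx)
    have hle : S ≤ R := hmax.2 ⟨inferInstance, hSol, hSs⟩ (fun x hx => by
      show π x ∈ F
      rw [hπ, QuotientGroup.mk'_apply, (QuotientGroup.eq_one_iff x).2 hx]
      exact one_mem _)
    rw [eq_bot_iff]
    intro q hq
    obtain ⟨g, rfl⟩ := hπs q
    exact Subgroup.mem_bot.2 ((QuotientGroup.eq_one_iff g).2 (hle hq))
  have h1 := card_semisimple c (G ⧸ R) β (quotAut_invol α hα R hRs)
    ((card_fix_le π hπs α β fun g => rfl).trans hc) hF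
  have h2 := card_solvable_normal α hα hc hm h3 hRn hR hRs
  rw [Subgroup.card_eq_card_quotient_mul_card_subgroup R, mul_comm]
  exact Nat.mul_le_mul h2 h1

end Cfsg.Agent.InvBound
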